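import Cfsg.Agent.H819.FourQuot
import Cfsg.Prelude.Def_SporadicB

/-!
# Complemented subgroup lattices: groups with an involution centralizer that is a double cover (helper819, S5900)
-/

set_option autoImplicit false

namespace Cfsg.Agent.H819.CoverCL

open Subgroup Cfsg Cfsg.Agent.H939.KLat Cfsg.Agent.H819.OverG Cfsg.Agent.H680.Over Cfsg.Agent.H819.OverCL
open Cfsg.Agent.H849.FourGroup
open scoped commutatorElement

theorem mem_zp {G : Type*} [Group G] {y : G} (hy : orderOf y = 2) (c : G) : c ∈ zpowers y ↔ c = 1 ∨ c = y := by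
  have hyy : y ^ (2 : ℤ) = 1 := by
    have := pow_orderOf_eq_one y
    rw [hy] at this
    rw [zpow_ofNat]
    exact this
  constructor
  · rintro ⟨k, rfl⟩
    rcases Int.even_or_odd' k with ⟨j, rfl | rfl⟩
    · left
      show y ^ (2 * j) = 1
      rw [zpow_mul, hyy, one_zpow]
    · right
      show y ^ (2 * j + 1) = y
      rw [zpow_add, zpow_mul, hyy, one_zpow, one_mul, zpow_one]
  · rintro (rfl | rfl)
    · exact one_mem _
    · exact mem_zpowers _

/-- the central quotient of an involution centralizer that is a double cover -/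
theorem exists_hom {G : Type*} [Group G] [Finite G] {t : G} (ht : orderOf t = 2) {K : Type*} [Group K]
    (h : IsNonsplitDoubleCover ↥(centralizer ({t} : Set G)) K) :
    ∃ f : ↥(centralizer ({t} : Set G)) →* K, Function.Surjective f ∧ ∀ x, f x = 1 ↔ (x : G) = 1 ∨ (x : G) = t := by
  obtain ⟨hc, ⟨e⟩, -⟩ := h
  refine ⟨e.toMonoidHom.comp (QuotientGroup.mk' (center ↥(centralizer ({t} : Set G)))),
    e.surjective.comp (QuotientGroup.mk'_surjective _), ?_⟩
  have hmem : t ∈ centralizer ({t} : Set G) := mem_centralizer_singleton_iff.2 rfl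
  have htZ : (⟨t, hmem⟩ : centralizer ({t} : Set G)) ∈ center ↥(centralizer ({t} : Set G)) := by
    rw [Subgroup.mem_center_iff]
    intro c
    exact Subtype.ext (mem_centralizer_singleton_iff.1 c.2)
  have ho : orderOf (⟨t, hmem⟩ : centralizer ({t} : Set G)) = 2 := by rw [Subgroup.orderOf_mk, ht]
  have hZt : zpowers (⟨t, hmem⟩ : centralizer ({t} : Set G)) = center ↥(centralizer ({t} : Set G)) := by
    apply Subgroup.eq_of_le_of_card_ge ((zpowers_le).2 htZ)
    rw [Nat.card_zpowers, ho, hc]
  intro x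
  show e (QuotientGroup.mk x) = 1 ↔ _
  rw [map_eq_one_iff e e.injective, QuotientGroup.eq_one_iff, ← hZt, mem_zp ho]
  constructor
  · rintro (hx | hx)
    · left; rw [hx]; rfl
    · right; rw [hx]
  · rintro (hx | hx)
    · exact Or.inl (Subtype.ext hx)
    · exact Or.inr (Subtype.ext hx)

theorem ker_eq {A B : Type*} [Group A] [Group B] {Z X : Subgroup A} {σ : ↥X →* B}
    (hk : ∀ x : ↥X, σ x = 1 ↔ (x : A) ∈ Z) : σ.ker = Z.subgroupOf X := by
  ext x
  rw [MonoidHom.mem_ker, hk, mem_subgroupOf]

theorem card_of {A B : Type*} [Group A] [Group B] {Z X : Subgroup A} (hZX : Z ≤ X) {σ : ↥X →* B}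
    (hs : Function.Surjective σ) (hk : ∀ x : ↥X, σ x = 1 ↔ (x : A) ∈ Z) : Nat.card ↥X = Nat.card ↥Z * Nat.card B := by
  have h2 := card_mul_index (Z.subgroupOf X)
  rw [Nat.card_congr (subgroupOfEquivOfLe hZX).toEquiv, ← ker_eq hk, index_ker, MonoidHom.range_eq_top.2 hs,
    card_top] at h2
  exact h2.symm

/-- A nonsplit double cover of a nonabelian simple group is perfect. -/
theorem perfect_of_cover {H K : Type*} [Group H] [Group K] [IsSimpleGroup K] (hna : ∃ a b : K, a * b ≠ b * a)
    (h : IsNonsplitDoubleCover H K) : _root_.commutator H = ⊤ := by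
  obtain ⟨hc, ⟨e⟩, hns⟩ := h
  let f : H →* K := e.toMonoidHom.comp (QuotientGroup.mk' (center H))
  have hf : Function.Surjective f := e.surjective.comp (QuotientGroup.mk'_surjective _)
  have hk : ∀ x, f x = 1 ↔ x ∈ center H := by
    intro x
    show e (QuotientGroup.mk x) = 1 ↔ _
    rw [map_eq_one_iff e e.injective, QuotientGroup.eq_one_iff]
  have h1 : (_root_.commutator H).map f = ⊤ := by
    have hn : ((_root_.commutator H).map f).Normal := Subgroup.Normal.map inferInstance f hf
    rcases hn.eq_bot_or_eq_top with h2 | h2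
    · exfalso
      obtain ⟨a, b, hab⟩ := hna
      obtain ⟨x, rfl⟩ := hf a
      obtain ⟨y, rfl⟩ := hf b
      have h3 : f ⁅x, y⁆ ∈ (_root_.commutator H).map f :=
        ⟨_, Subgroup.commutator_mem_commutator (Subgroup.mem_top x) (Subgroup.mem_top y), rfl⟩
      rw [h2, Subgroup.mem_bot, map_commutatorElement, commutatorElement_eq_one_iff_mul_comm] at h3
      exact hab h3
    · exact h2
  have h2 : _root_.commutator H ⊔ center H = ⊤ := by
    rw [eq_top_iff]
    intro x _
    have h3 : f x ∈ (_root_.commutator H).map f := by rw [h1]; trivial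
    obtain ⟨y, hy, hyx⟩ := h3
    have h4 : y⁻¹ * x ∈ center H := by
      rw [← hk, map_mul, map_inv, hyx, inv_mul_cancel]
    have h5 : x = y * (y⁻¹ * x) := by group
    rw [h5]
    exact Subgroup.mul_mem_sup hy h4
  by_cases h3 : center H ≤ _root_.commutator H
  · rwa [sup_eq_left.2 h3] at h2
  · exfalso
    apply hns (_root_.commutator H)
    have h4 : center H ⊓ _root_.commutator H = ⊥ := by
      have : Finite ↥(center H) := Nat.finite_of_card_ne_zero (by rw [hc]; norm_num)
      have h5 : Nat.card ↥(center H ⊓ _root_.commutator H) ∣ 2 := by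
        rw [← hc]
        exact Subgroup.card_dvd_of_le inf_le_left
      rcases (Nat.dvd_prime Nat.prime_two).1 h5 with h6 | h6
      · exact Subgroup.card_eq_one.1 h6
      · exfalso
        apply h3
        have h7 : center H ⊓ _root_.commutator H = center H := by
          apply Subgroup.eq_of_le_of_card_ge inf_le_left
          rw [h6, hc]
        rw [← h7]
        exact inf_le_right
    refine Subgroup.isComplement'_of_disjoint_and_mul_eq_univ (disjoint_iff.2 h4) ?_
    rw [← Subgroup.normal_mul, sup_comm, h2]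
    rfl

/-- **`CL G` from an involution centralizer that is a nonsplit double cover of a simple group** -/
theorem cl_of_cent {G : Type} [Group G] [Finite G] [IsSimpleGroup G] {y : G} (hy : orderOf y = 2) {K : Type*} [Group K]
    [IsSimpleGroup K] (hna : ∃ a b : K, a * b ≠ b * a)
    (hcov : IsNonsplitDoubleCover ↥(centralizer ({y} : Set G)) K) (hCL : CL K) {p m n N : ℕ} (hp : p.Prime)
    (hp2 : p ≠ 2) (hK : Nat.card K = n) (hN : Nat.card G = N) (hpn : p ∣ n) (hm : N = m * n) (har : Ar p m)
    (hO : Only (2 * n) N) : CL G := by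
  obtain ⟨f, hf, hk⟩ := exists_hom hy hcov
  have hperf := perfect_of_cover hna hcov
  have hZX : zpowers y ≤ centralizer ({y} : Set G) := (zpowers_le).2 (mem_centralizer_singleton_iff.2 rfl)
  have hZ2 : Nat.card ↥(zpowers y) = 2 := by rw [Nat.card_zpowers, hy]
  have hk' : ∀ x : centralizer ({y} : Set G), f x = 1 ↔ (x : G) ∈ zpowers y := fun x => by
    rw [hk, mem_zp hy]
  have hcen : ∀ z ∈ zpowers y, ∀ x ∈ centralizer ({y} : Set G), z * x = x * z := by
    intro z hz x hx
    rcases (mem_zp hy z).1 hz with rfl | rfl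
    · rw [one_mul, mul_one]
    · exact (mem_centralizer_singleton_iff.1 hx).symm
  have hc : ∀ g : G, (∀ x ∈ centralizer ({y} : Set G), g * x = x * g) → g ∈ zpowers y := by
    intro g hg
    have hgC : g ∈ centralizer ({y} : Set G) :=
      mem_centralizer_singleton_iff.2 (hg y (mem_centralizer_singleton_iff.2 rfl))
    have h1 : (⟨g, hgC⟩ : centralizer ({y} : Set G)) ∈ center (centralizer ({y} : Set G)) := by
      rw [Subgroup.mem_center_iff]
      intro c
      exact Subtype.ext (hg c c.2).symm
    have h2 : zpowers y = (center (centralizer ({y} : Set G))).map (centralizer ({y} : Set G)).subtype := by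
      apply Subgroup.eq_of_le_of_card_ge
      · rw [Subgroup.zpowers_le]
        refine ⟨⟨y, mem_centralizer_singleton_iff.2 rfl⟩, ?_, rfl⟩
        rw [SetLike.mem_coe, Subgroup.mem_center_iff]
        intro c
        exact Subtype.ext (mem_centralizer_singleton_iff.1 c.2)
      · rw [hZ2, ← Nat.card_congr ((Subgroup.center ↥(centralizer ({y} : Set G))).equivMapOfInjective _
          (Subgroup.subtype_injective _)).toEquiv, hcov.1]
    rw [h2]
    exact ⟨_, h1, rfl⟩
  have H := hyp_of_cover hZX hna f hf hk' hperf hcen hc (Or.inr (by rw [hZ2]; exact Nat.prime_two))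
  have hX : Nat.card ↥(centralizer ({y} : Set G)) = 2 * n := by
    rw [card_of hZX hf hk', hZ2, hK]
  refine cl_double H (p := p) (m := m) hp (by rw [hX]; exact Dvd.dvd.mul_left hpn 2) ?_ hcen
    (by rw [hN, hX, hZ2, hm]; ring) har (by rw [hX, hN]; exact hO) (by rw [hZ2]; exact Nat.prime_two)
    (int_of_surj hZX f hf (ker_eq hk') hCL)
  rw [hZ2]
  exact fun h => hp2 ((Nat.prime_dvd_prime_iff_eq hp Nat.prime_two).1 h)

/-- **`CL B` from the four-group data of `G`, `C_G(t)` a double cover of `B`** -/
theorem cl_of_four {G E : Type*} {B : Type} [Group G] [Group E] [Group B] [Finite G] [Finite B] [IsSimpleGroup E]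
    [IsSimpleGroup B] (hna : ∃ a b : E, a * b ≠ b * a) {t a y z : G} {π : centralizer ({t, a} : Set G) →* E}
    (D : Data t a y z π) (ht : orderOf t = 2) (hcov : IsNonsplitDoubleCover ↥(centralizer ({t} : Set G)) B)
    (hCL : CL E) {p m n N : ℕ} (hp : p.Prime) (hp2 : p ≠ 2) (hE : Nat.card E = n) (hB : Nat.card B = N) (hpn : p ∣ n)
    (hm : N = m * n) (har : Ar p m) (hO : Only (2 * n) N) : CL B := by
  obtain ⟨f, hf, hk⟩ := exists_hom ht hcov
  obtain ⟨Z, X, H, hZ2, hcen, σ, hσ, hσk⟩ := FourQuot.main D hna hf hk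
  have hX : Nat.card ↥X = 2 * n := by rw [card_of H.le hσ hσk, hZ2, hE]
  refine cl_double H (p := p) (m := m) hp (by rw [hX]; exact Dvd.dvd.mul_left hpn 2) ?_ hcen
    (by rw [hB, hX, hZ2, hm]; ring) har (by rw [hX, hB]; exact hO) (by rw [hZ2]; exact Nat.prime_two)
    (int_of_surj H.le σ hσ (ker_eq hσk) hCL)
  rw [hZ2]
  exact fun h => hp2 ((Nat.prime_dvd_prime_iff_eq hp Nat.prime_two).1 h)

theorem nonab_of {K : Type*} [Group K] [IsSimpleGroup K] (h2 : 2 ∣ Nat.card K) (h3 : 3 ∣ Nat.card K)
    (h0 : Nat.card K ≠ 0) : ∃ a b : K, a * b ≠ b * a := by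
  by_contra hn
  push Not at hn
  have hfin : Finite K := Nat.finite_of_card_ne_zero h0
  have hp : (Nat.card K).Prime := by
    let _ : CommGroup K := { (inferInstance : Group K) with mul_comm := hn }
    exact IsSimpleGroup.prime_card
  have h4 := (Nat.prime_dvd_prime_iff_eq Nat.prime_two hp).1 h2
  have h5 := (Nat.prime_dvd_prime_iff_eq Nat.prime_three hp).1 h3
  omega

end Cfsg.Agent.H819.CoverCL
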