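import Cfsg.Agent.H819.OverG
import Cfsg.Agent.H680.OverCl

/-!
# Complemented subgroup lattices: `G` from a quasisimple subgroup `X` with `C_G(X) = Z(X) = Z` (helper819, S5900)

* `hyp_of_cover` : the hypotheses `OverG.Hyp` from a perfect central extension `X → S` of a simple group;
* `ar_of` : `OverG.Ar p m` by computation;
* `ovr` : an overgroup of `X` is `G` or normalises `Z` (`X` if `Z = 1`);
* `cl_double`, `cl_simple` : `CL G`.
-/

set_option autoImplicit false

namespace Cfsg.Agent.H819.OverCL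

open Subgroup Cfsg Cfsg.Agent.H939.KLat Cfsg.Agent.H819.OverG Cfsg.Agent.H680.Over

open scoped commutatorElement

universe u v

/-! ### arithmetic -/

/-- the check for `Ar` -/
def arc (p : ℕ) (l : List (ℕ × ℕ)) : Bool :=
  l.all fun x => (List.range x.2).all fun i => (x.1 ^ (i + 1)) % p != 1 && x.1 % p != 0

theorem ar_of {p m : ℕ} (hp : p.Prime) {l : List (ℕ × ℕ)} (hv : OrdDiv.valid l m = true) (hc : arc p l = true) :
    Ar p m := by
  have key : ∀ r i : ℕ, r.Prime → 1 ≤ i → r ^ i ∣ m → (r ^ i) % p ≠ 1 ∧ r % p ≠ 0 := by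
    intro r i hr hi hd
    obtain ⟨k, hk, hik⟩ := OrdDiv.exists_pair hv hr hi hd
    have h1 := List.all_eq_true.1 hc _ hk
    have h2 := List.all_eq_true.1 h1 (i - 1) (List.mem_range.2 (by simp only; omega))
    simp only [Bool.and_eq_true, bne_iff_ne, ne_eq, Nat.sub_add_cancel hi] at h2
    exact h2
  refine ⟨fun h => ?_, fun r i hr hi hd h => ?_⟩
  · have h1 := (key p 1 hp le_rfl (by rwa [pow_one])).2
    exact h1 (Nat.mod_self p)
  · have h1 := (key r i hr hi hd).1
    apply h1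
    have h2 : 1 ≤ r ^ i := Nat.one_le_pow _ _ hr.pos
    have h3 : 1 ≡ r ^ i [MOD p] := (Nat.modEq_iff_dvd' h2).2 h
    rw [← h3, Nat.mod_eq_of_lt hp.one_lt]

section gen

variable {G : Type u} [Group G]

/-- **the hypotheses from a perfect central extension of a simple group** -/
theorem hyp_of_cover {Z X : Subgroup G} (hZX : Z ≤ X) {S : Type v} [Group S] [IsSimpleGroup S]
    (hna : ∃ a b : S, a * b ≠ b * a) (π : ↥X →* S) (hsurj : Function.Surjective π)
    (hker : ∀ x : ↥X, π x = 1 ↔ (x : G) ∈ Z) (hperf : commutator ↥X = ⊤)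
    (hcen : ∀ z ∈ Z, ∀ x ∈ X, z * x = x * z) (hc : ∀ g : G, (∀ x ∈ X, g * x = x * g) → g ∈ Z)
    (hprime : Z = ⊥ ∨ (Nat.card ↥Z).Prime) : Hyp Z X where
  le := hZX
  ne := by
    intro h
    obtain ⟨a, b, hab⟩ := hna
    obtain ⟨x, rfl⟩ := hsurj a
    apply hab
    rw [(hker x).2 (h x.2), one_mul, mul_one]
  sub := by
    intro N hNX hN
    have hn : (N.subgroupOf X).Normal := ⟨fun n hn g => hN g g.2 n hn⟩
    have hn2 : ((N.subgroupOf X).map π).Normal := Subgroup.Normal.map hn π hsurj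
    rcases hn2.eq_bot_or_eq_top with h | h
    · left
      intro n hn
      have h1 : π ⟨n, hNX hn⟩ ∈ (N.subgroupOf X).map π := ⟨⟨n, hNX hn⟩, hn, rfl⟩
      rw [h, mem_bot] at h1
      exact (hker _).1 h1
    · right
      have hdec : ∀ x : ↥X, ∃ n : ↥X, (n : G) ∈ N ∧ ∃ z : ↥X, (z : G) ∈ Z ∧ x = n * z := by
        intro x
        have h1 : π x ∈ (N.subgroupOf X).map π := by rw [h]; trivial
        obtain ⟨n, hn, hnx⟩ := h1
        refine ⟨n, hn, n⁻¹ * x, ?_, by group⟩
        rw [← hker, map_mul, map_inv, hnx, inv_mul_cancel]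
      have h2 : commutator ↥X ≤ N.subgroupOf X := by
        rw [_root_.commutator_def, Subgroup.commutator_le]
        intro x _ y _
        obtain ⟨n, hn, z, hz, rfl⟩ := hdec x
        obtain ⟨n', hn', z', hz', rfl⟩ := hdec y
        have hz1 : ∀ w : ↥X, z * w = w * z := fun w => Subtype.ext (hcen z hz w w.2)
        have hz2 : ∀ w : ↥X, z' * w = w * z' := fun w => Subtype.ext (hcen z' hz' w w.2)
        have h3 : ⁅n * z, n' * z'⁆ = ⁅n, n'⁆ := by
          rw [commutatorElement_def, commutatorElement_def, mul_inv_rev, mul_inv_rev]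
          calc n * z * (n' * z') * (z⁻¹ * n⁻¹) * (z'⁻¹ * n'⁻¹) = n * (z * (n' * z')) * (z⁻¹ * n⁻¹) * (z'⁻¹ * n'⁻¹) := by
                group
            _ = n * (n' * z' * z) * (z⁻¹ * n⁻¹) * (z'⁻¹ * n'⁻¹) := by rw [hz1]
            _ = n * n' * (z' * n⁻¹) * (z'⁻¹ * n'⁻¹) := by group
            _ = n * n' * (n⁻¹ * z') * (z'⁻¹ * n'⁻¹) := by rw [hz2]
            _ = n * n' * n⁻¹ * n'⁻¹ := by group
        rw [h3]
        have h4 : n ∈ N.subgroupOf X := hn
        have h5 : n' ∈ N.subgroupOf X := hn'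
        exact (N.subgroupOf X).mul_mem ((N.subgroupOf X).mul_mem ((N.subgroupOf X).mul_mem h4 h5)
          ((N.subgroupOf X).inv_mem h4)) ((N.subgroupOf X).inv_mem h5)
      rw [hperf, top_le_iff, subgroupOf_eq_top] at h2
      exact le_antisymm hNX h2
  cent := hc
  prime := by
    intro N hN
    rcases hprime with h | h
    · left
      rw [h] at hN
      exact le_bot_iff.1 hN
    · have : Fact (Nat.card ↥Z).Prime := ⟨h⟩
      rcases Subgroup.eq_bot_or_eq_top_of_prime_card (N.subgroupOf Z) with h1 | h1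
      · left
        rw [subgroupOf_eq_bot, disjoint_iff, inf_eq_left.2 hN] at h1
        exact h1
      · right
        rw [subgroupOf_eq_top] at h1
        exact le_antisymm hN h1

/-- the hypotheses from a simple subgroup with trivial centralizer -/
theorem hyp_of_simple {X : Subgroup G} (hs : IsSimpleGroup ↥X) (hna : ∃ a b : ↥X, a * b ≠ b * a)
    (hc : ∀ g : G, (∀ x ∈ X, g * x = x * g) → g = 1) : Hyp ⊥ X where
  le := bot_le
  ne := by
    intro h
    obtain ⟨a, b, hab⟩ := hna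
    apply hab
    have h1 : (a : G) = 1 := mem_bot.1 (h a.2)
    have h2 : (b : G) = 1 := mem_bot.1 (h b.2)
    exact Subtype.ext (by rw [coe_mul, coe_mul, h1, h2])
  sub := by
    intro N hNX hN
    have hn : (N.subgroupOf X).Normal := ⟨fun n hn g => hN g g.2 n hn⟩
    rcases hn.eq_bot_or_eq_top with h | h
    · left
      rw [subgroupOf_eq_bot, disjoint_iff, inf_eq_left.2 hNX] at h
      exact h.le
    · right
      rw [subgroupOf_eq_top] at h
      exact le_antisymm hNX h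
  cent := fun g hg => mem_bot.2 (hc g hg)
  prime := fun N hN => Or.inl (le_bot_iff.1 hN)

end gen

section fin

variable {G : Type} [Group G] [Finite G] {Z X : Subgroup G} {p m : ℕ}

/-- **an overgroup `K` of `X`: `K = G`, or `K` normalises `X`, or `Z ≠ 1` and `K` normalises `Z`** -/
theorem ovr (H : Hyp Z X) (hp : p.Prime) (hpX : p ∣ Nat.card ↥X) (hpZ : ¬ p ∣ Nat.card ↥Z)
    (hm : Nat.card G * Nat.card ↥Z = m * Nat.card ↥X) (har : Ar p m) (hO : Only (Nat.card ↥X) (Nat.card G))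
    {K : Subgroup G} (hXK : X ≤ K) :
    K = ⊤ ∨ (∀ k ∈ K, ∀ x ∈ X, k * x * k⁻¹ ∈ X) ∨ (Z ≠ ⊥ ∧ ∀ k ∈ K, ∀ z ∈ Z, k * z * k⁻¹ ∈ Z) := by
  have : Fact p.Prime := ⟨hp⟩
  by_cases h0 : Z ≠ ⊥ ∧ ∀ k ∈ K, ∀ z ∈ Z, k * z * k⁻¹ ∈ Z
  · exact Or.inr (Or.inr h0)
  obtain ⟨N, hXN, hNK, hN, hs⟩ := simple_closure H (fun N hN => dich H hpX hpZ hm har hN) hXK
    (fun h1 h2 => h0 ⟨h1, h2⟩)
  have hna : ¬ ∀ a b : ↥N, a * b = b * a := by
    intro h
    apply H.ne
    intro x hx
    apply H.cent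
    intro y hy
    exact congrArg Subtype.val (h ⟨x, hXN hx⟩ ⟨y, hXN hy⟩)
  rcases hO ↥N hna (card_dvd_of_le hXN) (card_subgroup_dvd_card N) with h1 | h1
  · right; left
    have h2 : X = N := eq_of_le_of_card_ge hXN h1.le
    rw [h2]
    exact hN
  · left
    have h2 : N = ⊤ := eq_top_of_card_eq N h1
    rw [h2] at hNK
    exact top_le_iff.1 hNK

/-- the overgroups normalise `Z` -/
theorem ovr' (H : Hyp Z X) (hp : p.Prime) (hpX : p ∣ Nat.card ↥X) (hpZ : ¬ p ∣ Nat.card ↥Z)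
    (hcen : ∀ z ∈ Z, ∀ x ∈ X, z * x = x * z)
    (hm : Nat.card G * Nat.card ↥Z = m * Nat.card ↥X) (har : Ar p m) (hO : Only (Nat.card ↥X) (Nat.card G))
    {K : Subgroup G} (hXK : X ≤ K) (hK : K ≠ ⊤) : ∀ k ∈ K, ∀ z ∈ Z, k * z * k⁻¹ ∈ Z := by
  rcases ovr H hp hpX hpZ hm har hO hXK with h | h | h
  · exact absurd h hK
  · intro k hk z hz
    apply H.cent
    intro x hx
    have h1 : k⁻¹ * x * k ∈ X := by
      have := h k⁻¹ (K.inv_mem hk) x hx
      rwa [inv_inv] at this
    have h2 := hcen z hz _ h1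
    calc k * z * k⁻¹ * x = k * (z * (k⁻¹ * x * k)) * k⁻¹ := by group
      _ = k * ((k⁻¹ * x * k) * z) * k⁻¹ := by rw [h2]
      _ = x * (k * z * k⁻¹) := by group
  · exact h.2

/-- **`CL G` from `X` quasisimple with centre `Z` of prime order** -/
theorem cl_double [IsSimpleGroup G] (H : Hyp Z X) (hp : p.Prime) (hpX : p ∣ Nat.card ↥X) (hpZ : ¬ p ∣ Nat.card ↥Z)
    (hcen : ∀ z ∈ Z, ∀ x ∈ X, z * x = x * z)
    (hm : Nat.card G * Nat.card ↥Z = m * Nat.card ↥X) (har : Ar p m) (hO : Only (Nat.card ↥X) (Nat.card G))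
    (hZ : (Nat.card ↥Z).Prime) (hint : Int Z X) : CL G := by
  have hZt : ¬ ∀ g : G, ∀ z ∈ Z, g * z * g⁻¹ ∈ Z := by
    intro h
    have hn : Z.Normal := ⟨fun z hz g => h g z hz⟩
    rcases hn.eq_bot_or_eq_top with h1 | h1
    · rw [h1, card_bot] at hZ
      exact Nat.not_prime_one hZ
    · exact H.ne (by rw [h1]; exact le_top)
  refine crit_prime (M := normalizer (Z : Set G)) H.le hint ?_ hZ (fun m hm t ht => ?_) fun Y hXY hY => ?_
  · intro h
    apply hZt
    intro g z hz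
    have : g ∈ normalizer (Z : Set G) := by rw [h]; trivial
    exact (mem_normalizer_iff.1 this z).1 hz
  · exact (mem_normalizer_iff.1 hm t).1 ht
  · have h1 := ovr' H hp hpX hpZ hcen hm har hO hXY hY
    intro k hk
    rw [mem_normalizer_iff]
    intro z
    refine ⟨fun hz => h1 k hk z hz, fun hz => ?_⟩
    have h2 := h1 k⁻¹ (Y.inv_mem hk) _ hz
    have e : k⁻¹ * (k * z * k⁻¹) * k⁻¹⁻¹ = z := by group
    rwa [e] at h2

/-- **`CL G` from `X` simple with trivial centralizer** -/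
theorem cl_simple [IsSimpleGroup G] (H : Hyp ⊥ X) (hp : p.Prime) (hpX : p ∣ Nat.card ↥X)
    (hm : Nat.card G = m * Nat.card ↥X) (har : Ar p m) (hO : Only (Nat.card ↥X) (Nat.card G))
    (hXt : X ≠ ⊤) (hCL : CL ↥X) : CL G := by
  refine crit_unique (M := normalizer (X : Set G)) hCL ?_ fun Y hXY hY => ?_
  · intro h
    have hn : X.Normal := normalizer_eq_top_iff.1 h
    rcases hn.eq_bot_or_eq_top with h1 | h1
    · exact H.ne (by rw [h1])
    · exact hXt h1
  · rcases ovr H hp hpX (by rw [card_bot]; exact hp.one_lt.ne' ∘ Nat.dvd_one.1)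
      (by rw [card_bot, mul_one]; exact hm) har hO hXY with h | h | h
    · exact absurd h hY
    · intro k hk
      rw [mem_normalizer_iff]
      intro z
      refine ⟨fun hz => h k hk z hz, fun hz => ?_⟩
      have h2 := h k⁻¹ (Y.inv_mem hk) _ hz
      have e : k⁻¹ * (k * z * k⁻¹) * k⁻¹⁻¹ = z := by group
      rwa [e] at h2
    · exact absurd rfl h.1

end fin

end Cfsg.Agent.H819.OverCL
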