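import Cfsg.Agent.H819.Eight
import Cfsg.Agent.H819.Syl3C
import Cfsg.Agent.LThreeMB.Twelve
import Cfsg.Agent.LThreeMB.CoOneFin
import Cfsg.Agent.H820.Joint

/-!
# The centralizer of a 3-central subgroup of order 3 of `C(z, y)` is of large Fischer type (helper819)
-/

set_option autoImplicit false

namespace Cfsg.Agent.H819.Twelve

open Cfsg Cfsg.Spor Cfsg.Agent.MonsterU Cfsg.Agent.MonsterU.Lam2 Cfsg.Agent.MonsterU.Ch
open Cfsg.Agent.Co2Type.Quad Cfsg.Agent.H819.Base Cfsg.Agent.H819.Frame Cfsg.Agent.H819.Eight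
open Cfsg.Agent.LThreeMB (fr XX Zx mk Faith tt PB mem_PB fr_conj CTwelve)
open Cfsg.Agent.MonsterU.CoFrameL2 (f0 F)
open Cfsg.Agent.SporadicA.Co0Mono (permCo0)
open Subgroup (centralizer zpowers mem_centralizer_singleton_iff)

/-! ### Central elements of a Sylow 3-subgroup of `F` -/

/-- the image of a central element of a Sylow 3-subgroup -/
theorem Cen.map {L F : Type*} [Group L] [Group F] [Finite L] [Finite F] (φ : L →* F) (hφ : Function.Surjective φ)
    {x : L} (h : Cen x) :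
    ∃ S : Sylow 3 F, φ x ∈ (S : Subgroup F) ∧ ∀ s ∈ (S : Subgroup F), φ x * s = s * φ x := by
  have : Fact (Nat.Prime 3) := ⟨by norm_num⟩
  obtain ⟨R, hR, hc⟩ := h
  refine ⟨R.mapSurjective hφ, ?_, ?_⟩
  · rw [Sylow.coe_mapSurjective]
    exact ⟨x, hR, rfl⟩
  · rw [Sylow.coe_mapSurjective]
    rintro _ ⟨r, hr, rfl⟩
    rw [← map_mul, hc r hr, map_mul]

/-- the Sylow 3-subgroup of `F` -/
noncomputable def SF : Subgroup ↥F := (Syl3.SP.subgroupOf M24).map j

theorem card_SF : Nat.card ↥SF = 3 ^ (Nat.card ↥F).factorization 3 := by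
  rw [SF, ← Nat.card_congr ((Syl3.SP.subgroupOf M24).equivMapOfInjective _ j_injective).toEquiv,
    Nat.card_congr (Subgroup.subgroupOfEquivOfLe Syl3.SP_le).toEquiv, Syl3.card_SP, card_F_three]
  norm_num

/-- **A central element of order 3 of a Sylow 3-subgroup of `F` has fixed rank at least 9.** -/
theorem fr_of_cen {x : ↥F} (hx : x ^ 3 = 1) (h : ∃ S : Sylow 3 ↥F, x ∈ (S : Subgroup ↥F) ∧
    ∀ s ∈ (S : Subgroup ↥F), x * s = s * x) : 17 ^ 2 ≤ fr (x : Co1) := by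
  have : Fact (Nat.Prime 3) := ⟨by norm_num⟩
  obtain ⟨S, hxS, hc⟩ := h
  obtain ⟨f, hf⟩ := MulAction.exists_smul_eq ↥F S (Sylow.ofCard SF card_SF)
  have hS : ∀ s : ↥F, s ∈ (S : Subgroup ↥F) ↔ f * s * f⁻¹ ∈ SF := by
    intro s
    have h1 : ((f • S : Sylow 3 ↥F) : Subgroup ↥F) = SF := by rw [hf]; rfl
    rw [← h1, Sylow.coe_subgroup_smul, Subgroup.mem_pointwise_smul_iff_inv_smul_mem]
    have h2 : (MulAut.conj f)⁻¹ • (f * s * f⁻¹) = s := by
      rw [MulAut.smul_def, ← map_inv, MulAut.conj_apply]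
      group
    rw [h2]
  obtain ⟨a, ha, hax⟩ := (hS x).1 hxS
  have hac : ∀ s ∈ Syl3.SP, (a : Equiv.Perm GolayPt) * s = s * a := by
    intro s hs
    have hs' : j ⟨s, Syl3.SP_le hs⟩ ∈ SF := ⟨⟨s, Syl3.SP_le hs⟩, hs, rfl⟩
    have h3 : f⁻¹ * j ⟨s, Syl3.SP_le hs⟩ * f ∈ (S : Subgroup ↥F) := by
      rw [hS]
      have h4 : f * (f⁻¹ * j ⟨s, Syl3.SP_le hs⟩ * f) * f⁻¹ = j ⟨s, Syl3.SP_le hs⟩ := by group
      rw [h4]; exact hs'
    have h5 := hc _ h3
    have h6 : j a * j ⟨s, Syl3.SP_le hs⟩ = j ⟨s, Syl3.SP_le hs⟩ * j a := by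
      rw [hax]
      calc f * x * f⁻¹ * j ⟨s, Syl3.SP_le hs⟩ = f * (x * (f⁻¹ * j ⟨s, Syl3.SP_le hs⟩ * f)) * f⁻¹ := by group
        _ = f * ((f⁻¹ * j ⟨s, Syl3.SP_le hs⟩ * f) * x) * f⁻¹ := by rw [h5]
        _ = j ⟨s, Syl3.SP_le hs⟩ * (f * x * f⁻¹) := by group
    rw [← map_mul, ← map_mul] at h6
    exact congrArg Subtype.val (j_injective h6)
  have ha3 : a ^ 3 = 1 := by
    apply j_injective
    rw [map_pow, hax, conj_pow, hx, mul_one, mul_inv_cancel, map_one]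
  have h1 := Syl3C.fr_large a ha3 (fun i hi => Syl3C.center ha hac hi)
  have h2 : ((j a : ↥F) : Co1) = CoOneType.CoOneE.pr (permCo0 a) := rfl
  have h3 : ((f : ↥F) : Co1) * x * (f : Co1)⁻¹ = CoOneType.CoOneE.pr (permCo0 a) := by
    rw [← h2, hax]; rfl
  rwa [← h3, fr_conj] at h1

/-! ### The type -/

section

variable {G : Type*} [Group G] {P : Subgroup G} {z : G} {eta : G → L2}
  {pi : Subgroup.centralizer ({z} : Set G) →* Co1}

theorem type_of_twelve [Finite G] [IsSimpleGroup G] (h : Chart P z eta pi) {x : Subgroup.centralizer ({z} : Set G)}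
    (hx : orderOf x = 3) (hfr : fr (pi x) = 2 ^ 12) (hs : CTwelve (pi x))
    (h4 : ∃ v : L2, pi x • v = v ∧ IsType 4 v) : IsOfLargeFischerType (XX (x : G)) := by
  have hx3 := LThreeMB.cube_eq_one hx
  obtain ⟨v, hv, h4⟩ := h4
  obtain ⟨y, hy, hyx, rfl⟩ := LThreeMB.exists_fix h hx3 hv
  obtain ⟨d, hdx, hdz⟩ := LThreeMB.exists_fusion h hx (by rw [hfr]; exact LThreeMB.CoOneFin.coOne.twelve) hy h4 hyx.symm
  have hyz : y ≠ z := by
    rintro rfl
    rw [h.eta_z] at h4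
    exact LThreeMB.not_type_four_zero h4
  obtain ⟨t, R, hR, hset, ⟨e⟩⟩ := Fus.setting_of_fus h (p := 3) (by norm_num) (by decide)
    (x := x) hx3 hs.faith (w := 6) (by norm_num) hfr hs.o2 hdx hdz hy hyz
  obtain ⟨E, M, hE, hM, K, _, _, hEM, hE3, hM2, hK, ⟨e0⟩⟩ := hs.chain
  let ρ : ↥(centralizer ({t} : Set (XX (x : G)))) →* XX (pi x) := e.toMonoidHom.comp (QuotientGroup.mk' R)
  have hρ : Function.Surjective ρ := e.surjective.comp (QuotientGroup.mk'_surjective R)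
  have hk : ρ.ker = R := by
    ext c
    rw [MonoidHom.mem_ker]
    show e (QuotientGroup.mk c) = 1 ↔ _
    rw [map_eq_one_iff e e.injective, QuotientGroup.eq_one_iff]
  have hn1 : (E.comap ρ).Normal := hE.comap ρ
  have hn2 : (M.comap ρ).Normal := hM.comap ρ
  obtain ⟨e1⟩ := LThreeMB.QuoMap.quo_comap ρ hρ E M
  refine ⟨t, R, hR, hset, E.comap ρ, M.comap ρ, hn1, hn2, ?_, Subgroup.comap_mono (f := ρ) hEM, ?_,
    ⟨K, inferInstance, inferInstance, hK, ⟨e1.trans e0⟩⟩, ?_⟩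
  · rw [← hk]
    exact Subgroup.comap_mono (f := ρ) bot_le
  · rw [LThreeMB.QuoMap.card_comap ρ hρ, hE3, hk, mul_comm]
  · rw [Subgroup.index_comap_of_surjective _ hρ, hM2]

/-- **Fixed rank 12.** -/
theorem type_of_fr [Finite G] [IsSimpleGroup G] (h : Chart P z eta pi) {x : Subgroup.centralizer ({z} : Set G)}
    (hx : orderOf x = 3) (hfr : fr (pi x) = 2 ^ 12) : IsOfLargeFischerType (XX (x : G)) := by
  obtain ⟨s, hs, hfs, ht, h4⟩ := LThreeMB.CoOneFin.coOne.psu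
  obtain ⟨k, hk⟩ := LThreeMB.CoOneFin.coOne.twelve (pi x) s (LThreeMB.orderOf_pi h hx) hs hfr hfs
  have h' := h.smul k
  have hpi : ((MulAut.conj k).toMonoidHom.comp pi) x = s := hk
  exact type_of_twelve h' hx (by rw [hpi, hfs]) (by rw [hpi]; exact ht) (by rw [hpi]; exact h4)

/-- **The centralizer of a 3-central subgroup of order 3 of `C(z, y)`.** -/
theorem main [Finite G] [IsSimpleGroup G] (h : Chart P z eta pi) {y : G} (hyP : y ∈ P) (h4 : IsType 4 (eta y))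
    (Y : Subgroup G) (hY : Y ≤ centralizer ({z, y} : Set G)) (hY3 : Nat.card ↥Y = 3)
    (hc : ∃ P : Sylow 3 ↥(centralizer ({z, y} : Set G)), Y.subgroupOf (centralizer ({z, y} : Set G)) ≤
      (Subgroup.center ↥(P : Subgroup ↥(centralizer ({z, y} : Set G)))).map
        (P : Subgroup ↥(centralizer ({z, y} : Set G))).subtype)
    [hn : (Y.subgroupOf (centralizer (Y : Set G))).Normal] :
    IsOfLargeFischerType (↥(centralizer (Y : Set G)) ⧸ Y.subgroupOf (centralizer (Y : Set G))) := by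
  obtain ⟨x, hBx, hx, hxy⟩ := H820.Joint.exists_gen (by norm_num) hY hY3
  refine H820.Joint.quot_eq (fun K _ => IsOfLargeFischerType K) hBx (type_of_fr h hx ?_)
  obtain ⟨k, hk⟩ := AmalSideOf.exists_smul_f0 h4
  have h' := h.smul k
  have hk' : k • eta y = f0 := hk
  have hxL : (x : G) ∈ centralizer ({z, y} : Set G) := hY (by rw [hBx]; exact Subgroup.mem_zpowers _)
  let x1 : ↥(centralizer ({z, y} : Set G)) := ⟨x, hxL⟩
  have hcen : Cen x1 := by
    obtain ⟨R, hR⟩ := hc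
    have hxR : x1 ∈ Y.subgroupOf (centralizer ({z, y} : Set G)) := by
      rw [Subgroup.mem_subgroupOf, hBx]
      exact Subgroup.mem_zpowers _
    obtain ⟨r, hr, hrx⟩ := hR hxR
    refine ⟨R, ?_, ?_⟩
    · rw [← hrx]; exact r.2
    · intro u hu
      rw [← hrx]
      have h1 := (Subgroup.mem_center_iff.1 hr) ⟨u, hu⟩
      exact (congrArg Subtype.val h1).symm
  have hx3 : x1 ^ 3 = 1 := by
    apply Subtype.ext
    have h1 : x ^ 3 = 1 := LThreeMB.cube_eq_one hx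
    have h2 : (x : G) ^ 3 = 1 := congrArg Subtype.val h1
    exact h2
  have h1 := fr_of_cen (x := phi h' hyP hk' x1) (by rw [← map_pow, hx3, map_one])
    (Cen.map (phi h' hyP hk') (phi_surj h' hyP hk') hcen)
  have h2 : ((phi h' hyP hk' x1 : ↥F) : Co1) = k * pi x * k⁻¹ := rfl
  rw [h2, fr_conj] at h1
  rcases LThreeMB.CoOneFin.coOne.ranks (pi x) (LThreeMB.orderOf_pi h hx) with h3 | h3 | h3 | h3
  · rw [h3] at h1; norm_num at h1
  · rw [h3] at h1; norm_num at h1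
  · rw [h3] at h1; norm_num at h1
  · exact h3

end

end Cfsg.Agent.H819.Twelve
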